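import Mathlib

/-!
# Avoiding finitely many proper subspaces, and the locally-quadratic dichotomy

Over a field with at least four elements.
-/

set_option autoImplicit false

namespace Cfsg.Agent.Lib.LUReg.Avoid

open Polynomial Module

variable {K : Type*} [Field K] {V : Type*} [AddCommGroup V] [Module K V]

theorem exists_notMem_finset (hK : 4 ≤ Cardinal.mk K) (s : Finset K) (hs : s.card < 4) :
    ∃ t, t ∉ s := by
  by_contra h
  push Not at h
  have e : K ≃ s := ⟨fun x => ⟨x, h x⟩, Subtype.val, fun _ => rfl, fun _ => rfl⟩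
  have h1 : Cardinal.mk K = (s.card : Cardinal) := by
    rw [Cardinal.mk_congr e, Cardinal.mk_coe_finset]
  rw [h1] at hK
  have h3 : 4 ≤ s.card := by exact_mod_cast hK
  omega

/-- A functional vanishing on `w` and nonzero on finitely many vectors outside `K w`. -/
theorem exists_functional (hK : 4 ≤ Cardinal.mk K) (w : V) (T : Finset V)
    (hT : T.card ≤ 4) (hw : ∀ v ∈ T, v ∉ Submodule.span K {w}) :
    ∃ q : Dual K V, q w = 0 ∧ ∀ v ∈ T, q v ≠ 0 := by
  classical
  induction T using Finset.induction_on with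
  | empty =>
    exact ⟨0, by simp, by simp⟩
  | insert v T hv ih =>
    rw [Finset.card_insert_of_notMem hv] at hT
    obtain ⟨q0, hq0w, hq0⟩ := ih (by omega) (fun x hx => hw x (Finset.mem_insert_of_mem hx))
    by_cases h0 : q0 v = 0
    · have hvw := hw v (Finset.mem_insert_self _ _)
      obtain ⟨q1, hq1v, hq1⟩ := Submodule.exists_dual_map_eq_bot_of_notMem hvw inferInstance
      have hq1w : q1 w = 0 := by
        have h3 : q1 w ∈ (Submodule.span K {w}).map q1 :=
          Submodule.mem_map_of_mem (Submodule.mem_span_singleton_self w)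
        rw [hq1] at h3
        exact (Submodule.mem_bot K).mp h3
      obtain ⟨t, ht⟩ := exists_notMem_finset hK (T.image fun x => - q1 x / q0 x)
        (lt_of_le_of_lt Finset.card_image_le (by omega))
      refine ⟨q1 + t • q0, by simp [hq0w, hq1w], ?_⟩
      intro x hx
      rw [Finset.mem_insert] at hx
      rcases hx with rfl | hx
      · simpa [h0] using hq1v
      · intro h0
        apply ht
        rw [Finset.mem_image]
        refine ⟨x, hx, ?_⟩
        have hq := hq0 x hx
        simp only [LinearMap.add_apply, LinearMap.smul_apply, smul_eq_mul] at h0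
        field_simp
        linear_combination -h0
    · refine ⟨q0, hq0w, ?_⟩
      intro x hx
      rw [Finset.mem_insert] at hx
      rcases hx with rfl | hx
      · exact h0
      · exact hq0 x hx

/-- Moving along a line, avoiding two subspaces. -/
theorem exists_t_avoid (hK : 4 ≤ Cardinal.mk K) (H1 H2 : Submodule K V) {x : V} (h1 : x ∉ H1)
    (h2 : x ∉ H2) (y : V) : ∃ t : K, t ≠ 0 ∧ x + t • y ∉ H1 ∧ x + t • y ∉ H2 := by
  classical
  have key : ∀ H : Submodule K V, x ∉ H → ∃ t0 : K, ∀ t : K, x + t • y ∈ H → t = t0 := by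
    intro H hH
    by_cases h : ∃ t : K, x + t • y ∈ H
    · obtain ⟨t0, ht0⟩ := h
      refine ⟨t0, fun t ht => ?_⟩
      by_contra hne
      have h3 : (t - t0) • y ∈ H := by
        have := H.sub_mem ht ht0
        convert this using 1
        rw [sub_smul]
        abel
      have h4 : y ∈ H := by
        have := H.smul_mem (t - t0)⁻¹ h3
        rwa [smul_smul, inv_mul_cancel₀ (sub_ne_zero.mpr hne), one_smul] at this
      have h5 : x ∈ H := by
        have := H.sub_mem ht0 (H.smul_mem t0 h4)
        simpa using this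
      exact hH h5
    · exact ⟨0, fun t ht => (h ⟨t, ht⟩).elim⟩
  obtain ⟨t1, ht1⟩ := key H1 h1
  obtain ⟨t2, ht2⟩ := key H2 h2
  obtain ⟨t, ht⟩ := exists_notMem_finset hK ({0, t1, t2} : Finset K)
    (lt_of_le_of_lt (Finset.card_le_three) (by norm_num))
  simp only [Finset.mem_insert, Finset.mem_singleton, not_or] at ht
  exact ⟨t, ht.1, fun h => ht.2.1 (ht1 t h), fun h => ht.2.2 (ht2 t h)⟩

/-- `x, A x` are linearly independent (concretely). -/
def Ind2 (A : Module.End K V) (x : V) : Prop :=
  ∀ a b : K, a • x + b • A x = 0 → a = 0 ∧ b = 0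

/-- `x, A x, A² x` are linearly independent (concretely). -/
def Ind3 (A : Module.End K V) (x : V) : Prop :=
  ∀ a b c : K, a • x + b • A x + c • A (A x) = 0 → a = 0 ∧ b = 0 ∧ c = 0

theorem Ind3.ind2 {A : Module.End K V} {x : V} (h : Ind3 A x) : Ind2 A x := by
  intro a b hab
  have := h a b 0 (by simpa using hab)
  exact ⟨this.1, this.2.1⟩

theorem Ind2.ne_zero {A : Module.End K V} {x : V} (h : Ind2 A x) : x ≠ 0 := by
  rintro rfl
  have := h 1 0 (by simp)
  exact one_ne_zero this.1

theorem exists_eigen_of_not_ind2 {A : Module.End K V} {x : V} (hx : x ≠ 0) (h : ¬ Ind2 A x) :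
    ∃ l : K, A x = l • x := by
  unfold Ind2 at h
  push Not at h
  obtain ⟨a, b, hab, hne⟩ := h
  have hb : b ≠ 0 := by
    rintro rfl
    have : a • x = 0 := by simpa using hab
    rcases smul_eq_zero.mp this with h | h
    · exact hne h rfl
    · exact hx h
  refine ⟨-a / b, ?_⟩
  have h1 : b • A x = -(a • x) := eq_neg_of_add_eq_zero_right hab
  calc A x = b⁻¹ • (b • A x) := by rw [smul_smul, inv_mul_cancel₀ hb, one_smul]
    _ = (-a / b) • x := by
      rw [h1, smul_neg, smul_smul, ← neg_smul]
      congr 1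
      field_simp

/-- A non-eigenvector outside two proper subspaces. -/
theorem exists_ind2 (hK : 4 ≤ Cardinal.mk K) (A : Module.End K V)
    (hA : ∀ c : K, A ≠ c • 1) (H1 H2 : Submodule K V) (h1 : H1 ≠ ⊤) (h2 : H2 ≠ ⊤) :
    ∃ p, p ∉ H1 ∧ p ∉ H2 ∧ Ind2 A p := by
  classical
  obtain ⟨p0, hp1, hp2⟩ : ∃ p, p ∉ H1 ∧ p ∉ H2 := by
    obtain ⟨x1, hx1⟩ : ∃ x, x ∉ H1 := by
      by_contra h; push Not at h; exact h1 (Submodule.eq_top_iff'.mpr h)
    obtain ⟨x2, hx2⟩ : ∃ x, x ∉ H2 := by
      by_contra h; push Not at h; exact h2 (Submodule.eq_top_iff'.mpr h)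
    by_cases h3 : x1 ∈ H2
    · by_cases h4 : x2 ∈ H1
      · refine ⟨x1 + x2, fun h => hx1 ?_, fun h => hx2 ?_⟩
        · simpa using H1.sub_mem h h4
        · simpa using H2.sub_mem h h3
      · exact ⟨x2, h4, hx2⟩
    · exact ⟨x1, hx1, h3⟩
  have hp0 : p0 ≠ 0 := by
    rintro rfl
    exact hp1 H1.zero_mem
  by_cases hi0 : Ind2 A p0
  · exact ⟨p0, hp1, hp2, hi0⟩
  obtain ⟨l, hl⟩ := exists_eigen_of_not_ind2 hp0 hi0
  obtain ⟨y, hy⟩ : ∃ y, A y ≠ l • y := by
    by_contra h
    push Not at h
    apply hA l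
    ext1 x
    simp [h x]
  obtain ⟨t, ht0, ht1, ht2⟩ := exists_t_avoid hK H1 H2 hp1 hp2 y
  set p1 := p0 + t • y with hp1def
  have hp10 : p1 ≠ 0 := by
    intro h
    rw [h] at ht1
    exact ht1 H1.zero_mem
  by_cases hi1 : Ind2 A p1
  · exact ⟨p1, ht1, ht2, hi1⟩
  obtain ⟨m, hm⟩ := exists_eigen_of_not_ind2 hp10 hi1
  have hml : m ≠ l := by
    rintro rfl
    apply hy
    have h3 : A p1 = A p0 + t • A y := by simp [hp1def]
    rw [hm, hl, hp1def, smul_add, smul_comm m t y] at h3
    have h4 : t • m • y = t • A y := add_left_cancel h3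
    exact (smul_right_injective V ht0 h4).symm
  obtain ⟨s, hs0, hs1, hs2⟩ := exists_t_avoid hK H1 H2 ht1 ht2 p0
  refine ⟨p1 + s • p0, hs1, hs2, ?_⟩
  intro a b hab
  have hA2 : A (p1 + s • p0) = m • p1 + (s * l) • p0 := by
    rw [map_add, map_smul, hm, hl, smul_smul]
  rw [hA2] at hab
  -- `(a + b m) p1 + s (a + b l) p0 = 0`
  have h5 : (a + b * m) • p1 + (s * (a + b * l)) • p0 = 0 := by
    rw [← hab]
    simp only [smul_add, add_smul, mul_add, smul_smul]
    have e1 : s * (b * l) = b * (s * l) := by ring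
    have e2 : s * a = a * s := by ring
    rw [e1, e2]
    abel
  have h6 : (a + b * m) • (m • p1) + (s * (a + b * l)) • (l • p0) = 0 := by
    have := congrArg A h5
    simpa [hm, hl, map_add, map_smul] using this
  have h7 : ((a + b * m) * (m - l)) • p1 = 0 := by
    have : ((a + b * m) * (m - l)) • p1
        = (a + b * m) • (m • p1) + (s * (a + b * l)) • (l • p0)
          - l • ((a + b * m) • p1 + (s * (a + b * l)) • p0) := by
      simp only [smul_add, smul_smul, mul_sub, sub_smul]
      have e1 : l * (a + b * m) = (a + b * m) * l := by ring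
      have e2 : l * (s * (a + b * l)) = s * (a + b * l) * l := by ring
      rw [e1, e2]
      abel
    rw [this, h6, h5]
    simp
  have h8 : a + b * m = 0 := by
    rcases smul_eq_zero.mp h7 with h | h
    · exact (mul_eq_zero.mp h).resolve_right (sub_ne_zero.mpr hml)
    · exact absurd h hp10
  have h9 : a + b * l = 0 := by
    rw [h8, zero_smul, zero_add] at h5
    rcases smul_eq_zero.mp h5 with h | h
    · exact (mul_eq_zero.mp h).resolve_left hs0
    · exact absurd h hp0
  have h10 : b = 0 := by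
    have : b * (m - l) = 0 := by linear_combination h8 - h9
    exact (mul_eq_zero.mp this).resolve_right (sub_ne_zero.mpr hml)
  refine ⟨?_, h10⟩
  rw [h10] at h8
  simpa using h8

end Cfsg.Agent.Lib.LUReg.Avoid
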