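import Mathlib

/-!
# Schur complements and gluing along a hyperplane

`V = K p ⊕ ker q`, `q p = 1`.
-/

set_option autoImplicit false

namespace Cfsg.Agent.Lib.LUReg.Schur

open Module

variable {K : Type*} [Field K] {V : Type*} [AddCommGroup V] [Module K V]

/-- The projection onto `ker q` along `p`. -/
def proj (q : Dual K V) (p : V) (h : q p = 1) : V →ₗ[K] LinearMap.ker q :=
  LinearMap.codRestrict _ (LinearMap.id - q.smulRight p) (by
    intro x
    simp [LinearMap.mem_ker, h])

variable {q : Dual K V} {p : V} (h : q p = 1)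

@[simp] theorem proj_coe (x : V) : (proj q p h x : V) = x - q x • p := rfl

@[simp] theorem proj_p : proj q p h p = 0 := by
  ext
  simp [h]

@[simp] theorem proj_sub (w : LinearMap.ker q) : proj q p h (w : V) = w := by
  ext
  have : q (w : V) = 0 := w.2
  simp [this]

theorem eq_add_proj (x : V) : x = q x • p + (proj q p h x : V) := by simp

/-- The decomposition `V ≃ K × ker q`. -/
def decomp : V ≃ₗ[K] K × LinearMap.ker q where
  toFun x := (q x, proj q p h x)
  map_add' x y := by simp
  map_smul' r x := by simp
  invFun z := z.1 • p + (z.2 : V)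
  left_inv x := by simp
  right_inv z := by
    have hz : q (z.2 : V) = 0 := z.2.2
    ext <;> simp [h, hz]

@[simp] theorem decomp_apply (x : V) : decomp h x = (q x, proj q p h x) := rfl

@[simp] theorem decomp_symm_apply (z : K × LinearMap.ker q) :
    (decomp h).symm z = z.1 • p + (z.2 : V) := rfl

/-- The Schur complement of `A` at `(p, q)`, `q (A p) = 1`. -/
def schur (A : Module.End K V) (q : Dual K V) (p : V) (h1 : q (A p) = 1) :
    Module.End K (LinearMap.ker q) :=
  LinearMap.codRestrict _ ((A - (q ∘ₗ A).smulRight (A p)) ∘ₗ (LinearMap.ker q).subtype) (by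
    intro w
    simp [LinearMap.mem_ker, h1])

variable (A : Module.End K V) (h1 : q (A p) = 1)

@[simp] theorem schur_coe (w : LinearMap.ker q) :
    (schur A q p h1 w : V) = A w - q (A w) • A p := rfl

/-- Lower gluing: `p ↦ X`, `w ↦ L₁ w`. -/
def gL (X : V) (L1 : Module.End K (LinearMap.ker q)) : Module.End K V :=
  q.smulRight X + (LinearMap.ker q).subtype ∘ₗ L1 ∘ₗ proj q p h

/-- Upper gluing: `p ↦ p`, `w ↦ r' w • p + U₁ w`. -/
def gU (r' : Dual K (LinearMap.ker q)) (U1 : Module.End K (LinearMap.ker q)) : Module.End K V :=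
  (q + r' ∘ₗ proj q p h).smulRight p + (LinearMap.ker q).subtype ∘ₗ U1 ∘ₗ proj q p h

@[simp] theorem gL_apply (X : V) (L1 : Module.End K (LinearMap.ker q)) (x : V) :
    gL h X L1 x = q x • X + (L1 (proj q p h x) : V) := rfl

@[simp] theorem gU_apply (r' : Dual K (LinearMap.ker q)) (U1 : Module.End K (LinearMap.ker q))
    (x : V) : gU h r' U1 x = (q x + r' (proj q p h x)) • p + (U1 (proj q p h x) : V) := rfl

/-- The restriction of `q ∘ A` to `ker q`. -/
def rowOf (A : Module.End K V) (q : Dual K V) : Dual K (LinearMap.ker q) :=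
  q ∘ₗ A ∘ₗ (LinearMap.ker q).subtype

@[simp] theorem rowOf_apply (w : LinearMap.ker q) : rowOf A q w = q (A w) := rfl

theorem q_gU (r' : Dual K (LinearMap.ker q)) (U1 : Module.End K (LinearMap.ker q)) (x : V) :
    q (gU h r' U1 x) = q x + r' (proj q p h x) := by
  have hU : q (U1 (proj q p h x) : V) = 0 := (U1 (proj q p h x)).2
  rw [gU_apply, map_add, map_smul, h, hU, smul_eq_mul, mul_one, add_zero]

theorem proj_gU (r' : Dual K (LinearMap.ker q)) (U1 : Module.End K (LinearMap.ker q)) (x : V) :
    proj q p h (gU h r' U1 x) = U1 (proj q p h x) := by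
  rw [gU_apply, map_add, map_smul, proj_p, smul_zero, zero_add, proj_sub]

/-- The factorization `A = L U`. -/
theorem factor (L1 U1 : Module.End K (LinearMap.ker q)) (hfac : schur A q p h1 = L1 * U1) :
    A = gL h (A p) L1 * gU h (rowOf A q) U1 := by
  ext x
  set w := proj q p h x with hw
  have hS : (L1 (U1 w) : V) = A w - q (A w) • A p := by
    have := congrArg (fun T => ((T w : LinearMap.ker q) : V)) hfac
    simpa only [schur_coe, Module.End.mul_apply] using this.symm
  rw [Module.End.mul_apply, gL_apply, q_gU, proj_gU, ← hw, hS, rowOf_apply]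
  have hx : x = q x • p + (w : V) := eq_add_proj h x
  conv_lhs => rw [hx]
  rw [map_add, map_smul, add_smul]
  abel

include h in
/-- `A = L₀ ∘ S ∘ U₀`: `det` of the Schur complement. -/
theorem det_schur [FiniteDimensional K V] :
    LinearMap.det (schur A q p h1) = LinearMap.det A := by
  have hfac := factor h A h1 1 (schur A q p h1) (by rw [one_mul])
  -- lower factor is a transvection
  have hL : gL h (A p) 1 = LinearMap.transvection q (A p - p) := by
    ext x
    simp only [gL_apply, Module.End.one_apply, proj_coe, LinearMap.transvection.apply, smul_sub]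
    abel
  -- upper factor
  set r' := rowOf A q with hr'
  set S : Module.End K V := ((decomp h).symm : K × LinearMap.ker q →ₗ[K] V)
    ∘ₗ (LinearMap.prodMap LinearMap.id (schur A q p h1))
    ∘ₗ ((decomp h) : V →ₗ[K] K × LinearMap.ker q) with hS
  have hU : gU h r' (schur A q p h1) = S * LinearMap.transvection (r' ∘ₗ proj q p h) p := by
    ext x
    simp only [Module.End.mul_apply, gU_apply, LinearMap.transvection.apply, hS,
      LinearMap.comp_apply, LinearEquiv.coe_coe, decomp_apply, LinearMap.prodMap_apply,
      LinearMap.id_apply, decomp_symm_apply, map_add, map_smul, h, proj_p, smul_zero, add_zero,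
      LinearMap.coe_comp, Function.comp_apply, smul_eq_mul, mul_one, add_smul, map_zero,
      Submodule.coe_zero, one_smul]
    abel
  have hdetS : LinearMap.det S = LinearMap.det (schur A q p h1) := by
    have := LinearMap.det_conj (LinearMap.prodMap LinearMap.id (schur A q p h1)) (decomp h).symm
    rw [LinearEquiv.symm_symm] at this
    rw [hS, this, LinearMap.det_prodMap, LinearMap.det_id, one_mul]
  conv_rhs => rw [hfac, hL, hU]
  rw [map_mul, map_mul, LinearMap.transvection.det, LinearMap.transvection.det, hdetS]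
  have h3 : (r' ∘ₗ proj q p h) p = 0 := by simp
  rw [h3, map_sub, h1, h]
  simp

include h in
/-- The trace of the Schur complement. -/
theorem trace_schur [FiniteDimensional K V] :
    LinearMap.trace K _ (schur A q p h1) = LinearMap.trace K V A - q (A (A p)) := by
  set S : Module.End K V := ((decomp h).symm : K × LinearMap.ker q →ₗ[K] V)
    ∘ₗ (LinearMap.prodMap 0 (schur A q p h1))
    ∘ₗ ((decomp h) : V →ₗ[K] K × LinearMap.ker q) with hS
  have hSapp : ∀ x, S x = A (proj q p h x : V) - q (A (proj q p h x : V)) • A p := by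
    intro x
    simp only [hS, LinearMap.comp_apply, LinearEquiv.coe_coe, decomp_apply,
      LinearMap.prodMap_apply, decomp_symm_apply, LinearMap.zero_apply, zero_smul, zero_add,
      schur_coe]
  have hA : A = q.smulRight (A p) + (rowOf A q ∘ₗ proj q p h).smulRight (A p) + S := by
    ext x
    simp only [LinearMap.add_apply, LinearMap.smulRight_apply, LinearMap.comp_apply, rowOf_apply,
      hSapp]
    have hx : x = q x • p + (proj q p h x : V) := eq_add_proj h x
    conv_lhs => rw [hx]
    rw [map_add, map_smul]
    abel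
  have htS : LinearMap.trace K V S = LinearMap.trace K _ (schur A q p h1) := by
    have := LinearMap.trace_conj' (LinearMap.prodMap (0 : K →ₗ[K] K) (schur A q p h1))
      (decomp h).symm
    rw [LinearMap.trace_prodMap', map_zero] at this
    simp only [zero_add] at this
    exact this
  have hqA : (rowOf A q ∘ₗ proj q p h) (A p) = q (A (A p)) - 1 := by
    simp only [LinearMap.comp_apply, rowOf_apply, proj_coe, map_sub, h1, one_smul]
  have e : LinearMap.trace K V A = LinearMap.trace K V
      (q.smulRight (A p) + (rowOf A q ∘ₗ proj q p h).smulRight (A p) + S) := congrArg _ hA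
  rw [e, map_add, map_add, LinearMap.trace_smulRight, LinearMap.trace_smulRight, hqA, htS, h1]
  ring

/-! ## Powers of the glued maps -/

/-- `L - 1` in terms of `L₁ - 1`. -/
theorem gL_sub_one_apply (c : LinearMap.ker q) (L1 : Module.End K (LinearMap.ker q)) (x : V) :
    (gL h (p + (c : V)) L1 - 1) x = ((q x • c + (L1 - 1) (proj q p h x) : LinearMap.ker q) : V) := by
  simp only [LinearMap.sub_apply, gL_apply, Module.End.one_apply, proj_coe, smul_add,
    Submodule.coe_add, Submodule.coe_smul, Submodule.coe_sub]
  abel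

theorem gL_pow_succ_apply (c : LinearMap.ker q) (L1 : Module.End K (LinearMap.ker q)) (k : ℕ)
    (x : V) : ((gL h (p + (c : V)) L1 - 1) ^ (k + 1)) x
      = ((((L1 - 1) ^ k) (q x • c + (L1 - 1) (proj q p h x)) : LinearMap.ker q) : V) := by
  induction k with
  | zero => rw [zero_add, pow_one, pow_zero, Module.End.one_apply, gL_sub_one_apply]
  | succ k ih =>
    rw [pow_succ', Module.End.mul_apply, ih, gL_sub_one_apply]
    have h0 : q ((((L1 - 1) ^ k) (q x • c + (L1 - 1) (proj q p h x)) : LinearMap.ker q) : V) = 0 :=
      (((L1 - 1) ^ k) (q x • c + (L1 - 1) (proj q p h x))).2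
    rw [h0, zero_smul, zero_add, proj_sub, pow_succ' (L1 - 1) k, Module.End.mul_apply]

/-- `U - 1` in terms of `U₁ - 1`. -/
theorem gU_sub_one_apply (r' : Dual K (LinearMap.ker q)) (U1 : Module.End K (LinearMap.ker q))
    (x : V) : (gU h r' U1 - 1) x
      = r' (proj q p h x) • p + ((U1 - 1) (proj q p h x) : LinearMap.ker q) := by
  simp only [LinearMap.sub_apply, gU_apply, Module.End.one_apply, proj_coe, add_smul,
    Submodule.coe_sub]
  abel

theorem gU_pow_succ_apply (r' : Dual K (LinearMap.ker q)) (U1 : Module.End K (LinearMap.ker q))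
    (k : ℕ) (x : V) : ((gU h r' U1 - 1) ^ (k + 1)) x
      = r' (((U1 - 1) ^ k) (proj q p h x)) • p
        + ((((U1 - 1) ^ (k + 1)) (proj q p h x) : LinearMap.ker q) : V) := by
  induction k with
  | zero => rw [zero_add, pow_one, pow_zero, Module.End.one_apply, gU_sub_one_apply, pow_one]
  | succ k ih =>
    rw [pow_succ', Module.End.mul_apply, ih, map_add, map_smul]
    have hp0 : (gU h r' U1 - 1) p = 0 := by
      rw [gU_sub_one_apply, proj_p]
      simp
    rw [hp0, smul_zero, zero_add, gU_sub_one_apply, proj_sub]
    have e1 : ((U1 - 1) ^ (k + 1)) (proj q p h x) = (U1 - 1) (((U1 - 1) ^ k) (proj q p h x)) := by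
      rw [pow_succ', Module.End.mul_apply]
    have e2 : ((U1 - 1) ^ (k + 1 + 1)) (proj q p h x)
        = (U1 - 1) (((U1 - 1) ^ (k + 1)) (proj q p h x)) := by
      rw [pow_succ', Module.End.mul_apply]
    rw [e2, e1]

end Cfsg.Agent.Lib.LUReg.Schur
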