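import Cfsg.Agent.Lib.LUReg.Quad
import Cfsg.Agent.Lib.LUReg.Schur

/-!
# Choosing the pivot `(p, q)`
-/

set_option autoImplicit false

namespace Cfsg.Agent.Lib.LUReg.Choice

open Polynomial Module Cfsg.Agent.Lib.LUReg.Avoid Cfsg.Agent.Lib.LUReg.Quad
  Cfsg.Agent.Lib.LUReg.Schur

variable {K : Type*} [Field K] {V : Type*} [AddCommGroup V] [Module K V]

/-- Rank `≤ 1` and `det = 1` force nilpotence. -/
theorem nilp_of_rank_one [FiniteDimensional K V] (A : Module.End K V) (hA : LinearMap.det A = 1)
    (c : V) (hc : c ≠ 0) (h : ∀ x, (A - 1) x ∈ Submodule.span K {c}) : IsNilpotent (A - 1) := by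
  obtain ⟨χ, hχ⟩ : ∃ χ : Dual K V, χ c = 1 := by
    obtain ⟨f, hf⟩ : ∃ f : Dual K V, f c ≠ 0 := by
      by_contra hcon
      push Not at hcon
      exact hc ((Module.forall_dual_apply_eq_zero_iff K c).mp hcon)
    exact ⟨(f c)⁻¹ • f, by simp [hf]⟩
  set φ : Dual K V := χ ∘ₗ (A - 1) with hφ
  have hN : ∀ x, (A - 1) x = φ x • c := by
    intro x
    obtain ⟨a, ha⟩ := Submodule.mem_span_singleton.mp (h x)
    have : φ x = a := by
      rw [hφ, LinearMap.comp_apply, ← ha, map_smul, hχ, smul_eq_mul, mul_one]
    rw [this, ha]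
  have hT : A = LinearMap.transvection φ c := by
    ext x
    rw [LinearMap.transvection.apply, ← hN]
    simp
  have h0 : φ c = 0 := by
    have := hA
    rw [hT, LinearMap.transvection.det] at this
    simpa using this
  refine ⟨2, ?_⟩
  ext x
  rw [pow_two, Module.End.mul_apply, hN x, map_smul, hN c, h0]
  simp

/-- Two functionals on a space of dimension `≥ 3` have a common nonzero kernel vector. -/
theorem exists_common_ker [FiniteDimensional K V] (hd : 3 ≤ finrank K V) (f g : Dual K V) :
    ∃ x, x ≠ 0 ∧ f x = 0 ∧ g x = 0 := by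
  have : LinearMap.ker (f.prod g) ≠ ⊥ := by
    apply LinearMap.ker_ne_bot_of_finrank_lt
    simp
    omega
  obtain ⟨x, hx, hx0⟩ := Submodule.exists_mem_ne_zero_of_ne_bot this
  have hx2 : (f x, g x) = 0 := hx
  exact ⟨x, hx0, (Prod.ext_iff.mp hx2).1, (Prod.ext_iff.mp hx2).2⟩

/-- The pivot data: what the recursion needs. -/
structure Pivot (A : Module.End K V) (r : Dual K V) (c : V) (p : V) (q : Dual K V) : Prop where
  h : q p = 1
  h1 : q (A p) = 1
  hr : r p ≠ 0
  hc : q c ≠ 0
  hne : A p ≠ p
  hrow : rowOf A q ≠ 0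

/-- Normalizing a functional. -/
theorem exists_normalized {w p : V} {q : Dual K V} (hqw : q w = 0) (hqp : q p ≠ 0) :
    ∃ q' : Dual K V, q' w = 0 ∧ q' p = 1 ∧ ∀ x, q x ≠ 0 → q' x ≠ 0 := by
  refine ⟨(q p)⁻¹ • q, by simp [hqw], by simp [hqp], fun x hx => ?_⟩
  simp [hqp, hx]

theorem notMem_span_of_ind2 {A : Module.End K V} {p : V} (h : Ind2 A p) :
    p ∉ Submodule.span K {A p - p} := by
  intro hm
  obtain ⟨a, ha⟩ := Submodule.mem_span_singleton.mp hm
  have h0 := h (-a - 1) a (by
    rw [← sub_eq_zero] at ha
    rw [← ha]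
    simp only [smul_sub, sub_smul, neg_smul, one_smul]
    abel)
  have h1 : a = 0 := h0.2
  have h2 := h0.1
  rw [h1] at h2
  simp at h2

theorem c_notMem_span {A : Module.End K V} {p c : V} (hc : c ≠ 0)
    (hp : p ∉ (Submodule.span K {c}).comap (A - 1)) : c ∉ Submodule.span K {A p - p} := by
  intro hm
  obtain ⟨a, ha⟩ := Submodule.mem_span_singleton.mp hm
  apply hp
  have ha0 : a ≠ 0 := by
    rintro rfl
    exact hc (by simpa using ha.symm)
  rw [Submodule.mem_comap]
  have : (A - 1) p = a⁻¹ • c := by
    rw [← ha, smul_smul, inv_mul_cancel₀ ha0, one_smul]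
    simp
  rw [this]
  exact Submodule.smul_mem _ _ (Submodule.mem_span_singleton_self c)

/-- The subspace `H₂` is proper. -/
theorem H2_ne_top [FiniteDimensional K V] {A : Module.End K V} (hA : LinearMap.det A = 1)
    (hnil : ¬ IsNilpotent (A - 1)) {c : V} (hc : c ≠ 0) :
    (Submodule.span K {c}).comap (A - 1) ≠ ⊤ := by
  intro htop
  apply hnil
  apply nilp_of_rank_one A hA c hc
  intro x
  have : x ∈ (Submodule.span K {c}).comap (A - 1) := by
    rw [htop]
    trivial
  exact this

/-- `q` vanishes on a vector of `ker q` iff … : the element `A p - p` of `ker q`. -/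
def w1 {A : Module.End K V} {p : V} {q : Dual K V} (h : q p = 1) (h1 : q (A p) = 1) :
    LinearMap.ker q := ⟨A p - p, by simp [LinearMap.mem_ker, h, h1]⟩

@[simp] theorem w1_coe {A : Module.End K V} {p : V} {q : Dual K V} (h : q p = 1)
    (h1 : q (A p) = 1) : (w1 h h1 : V) = A p - p := rfl

/-- Case S: `p, A p, A² p` independent. -/
theorem choice_S [FiniteDimensional K V] (hK : 4 ≤ Cardinal.mk K) (A : Module.End K V)
    (r : Dual K V) (c p : V) (hc : c ≠ 0) (hp1 : r p ≠ 0)
    (hp2 : p ∉ (Submodule.span K {c}).comap (A - 1)) (hp : Ind3 A p) :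
    ∃ q : Dual K V, ∃ hP : Pivot A r c p q,
      (∀ a : K, schur A q p hP.h1 ≠ a • 1) ∧ ¬ IsNilpotent (schur A q p hP.h1 - 1) := by
  classical
  have h2 := hp.ind2
  set w := A p - p with hw
  set s1 : K := LinearMap.trace K V A - ((finrank K V - 1 : ℕ) : K) with hs1
  have hbad : ∀ s : K, A (A p) - s • p ∉ Submodule.span K {w} := by
    intro s hm
    obtain ⟨a, ha⟩ := Submodule.mem_span_singleton.mp hm
    rw [hw] at ha
    have := hp (a - s) (-a) 1 (by linear_combination (norm := module) -ha)
    exact one_ne_zero this.2.2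
  obtain ⟨q0, hq0w, hq0⟩ := exists_functional hK w
    ({p, c, A (A p) - (1 : K) • p, A (A p) - s1 • p} : Finset V) Finset.card_le_four (by
      intro v hv
      simp only [Finset.mem_insert, Finset.mem_singleton] at hv
      rcases hv with h | h | h | h <;> rw [h]
      · exact notMem_span_of_ind2 h2
      · exact c_notMem_span hc hp2
      · exact hbad 1
      · exact hbad s1)
  obtain ⟨q, hqw, hqp, hq⟩ := exists_normalized (p := p) hq0w (hq0 p (by simp))
  have hqAp : q (A p) = 1 := by
    have := hqw
    rw [hw, map_sub, hqp, sub_eq_zero] at this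
    exact this
  set s := q (A (A p)) with hs
  have hs_one : s ≠ 1 := by
    have := hq _ (hq0 (A (A p) - (1 : K) • p) (by simp))
    rw [map_sub, map_smul, hqp, smul_eq_mul, mul_one, sub_ne_zero] at this
    exact this
  have hs_s1 : s ≠ s1 := by
    have := hq _ (hq0 (A (A p) - s1 • p) (by simp))
    rw [map_sub, map_smul, hqp, smul_eq_mul, mul_one, sub_ne_zero] at this
    exact this
  have hqc : q c ≠ 0 := hq _ (hq0 c (by simp))
  have hAw : q (A (A p - p)) = s - 1 := by rw [map_sub, map_sub, hqAp]
  have hne : A p ≠ p := by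
    intro h
    have := h2 (-1) 1 (by rw [h]; module)
    exact one_ne_zero this.2
  have hrow : rowOf A q ≠ 0 := by
    intro h0
    have := congrArg (fun f => f (w1 hqp hqAp)) h0
    simp only [rowOf_apply, w1_coe, LinearMap.zero_apply] at this
    rw [hAw] at this
    exact hs_one (sub_eq_zero.mp this)
  refine ⟨q, ⟨hqp, hqAp, hp1, hqc, hne, hrow⟩, ?_, ?_⟩
  · intro a ha
    have h3 := congrArg (fun T => ((T (w1 hqp hqAp) : LinearMap.ker q) : V)) ha
    simp only [schur_coe, w1_coe, LinearMap.smul_apply, Module.End.one_apply,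
      Submodule.coe_smul] at h3
    rw [hAw] at h3
    have h4 := hp a (-(s + a)) 1 (by
      rw [map_sub] at h3
      linear_combination (norm := module) h3)
    exact one_ne_zero h4.2.2
  · intro hnil
    have h3 := (LinearMap.isNilpotent_trace_of_isNilpotent hnil).eq_zero
    rw [map_sub, trace_schur hqp, LinearMap.trace_one] at h3
    apply hs_s1
    have hq0' : q ≠ 0 := by
      rintro rfl
      simp at hqp
    have hfr := Module.Dual.finrank_ker_add_one_of_ne_zero hq0'
    have hfr2 : finrank K (LinearMap.ker q) = finrank K V - 1 := by omega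
    rw [hfr2] at h3
    rw [hs1]
    linear_combination -h3

/-- With a quadratic equation, the Schur complement at a pivot is nonscalar. -/
theorem nonscalar_of_quad [FiniteDimensional K V] (A : Module.End K V) (u v : K)
    (hq : ∀ x, A (A x) = u • A x + v • x) (hinj : Function.Injective A) {p : V} {q : Dual K V}
    (h : q p = 1) (h1 : q (A p) = 1) (hp : Ind2 A p) (hrow : rowOf A q ≠ 0)
    (hd : 3 ≤ finrank K V) (a : K) : schur A q p h1 ≠ a • 1 := by
  intro ha
  obtain ⟨w, hw⟩ : ∃ w : LinearMap.ker q, q (A w) ≠ 0 := by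
    by_contra hcon
    push Not at hcon
    exact hrow (LinearMap.ext hcon)
  obtain ⟨x, hx0, hx1, hx2⟩ := exists_common_ker hd q (q ∘ₗ A)
  rw [LinearMap.comp_apply] at hx2
  have hS : ∀ y : LinearMap.ker q, A y - q (A y) • A p = a • (y : V) := by
    intro y
    have := congrArg (fun T => ((T y : LinearMap.ker q) : V)) ha
    simpa only [schur_coe, LinearMap.smul_apply, Module.End.one_apply,
      Submodule.coe_smul] using this
  have hAx : A x = a • x := by
    have := hS ⟨x, hx1⟩
    simpa [hx2] using this
  have hfa : a * a - u * a - v = 0 := by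
    have h3 := hq x
    rw [hAx, map_smul, hAx] at h3
    have h4 : (a * a - u * a - v) • x = 0 := by
      linear_combination (norm := module) h3
    exact (smul_eq_zero.mp h4).resolve_right hx0
  have ha0 : a ≠ 0 := by
    rintro rfl
    apply hx0
    apply hinj
    rw [hAx, zero_smul, map_zero]
  set e := q (A w) with he
  have hAw : A w = a • (w : V) + e • A p := by
    have := hS w
    rw [← this]
    abel
  have E : u • (a • (w : V) + e • A p) + v • (w : V)
      = a • (a • (w : V) + e • A p) + e • (u • A p + v • p) := by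
    have h3 := hq (w : V)
    rw [hAw] at h3
    rw [map_add, map_smul, map_smul, hAw, hq p] at h3
    exact h3.symm
  have hfw : (a * a - u * a - v) • (w : V) = 0 := by rw [hfa, zero_smul]
  have key : (e * v) • p + (a * e) • A p = 0 := by
    linear_combination (norm := module) -E - hfw
  have := hp _ _ key
  exact (mul_ne_zero ha0 hw) this.2

/-- Case Q: `A` satisfies a quadratic equation. -/
theorem choice_Q [FiniteDimensional K V] (hK : 4 ≤ Cardinal.mk K) (A : Module.End K V)
    (hdet : LinearMap.det A = 1) (hnil : ¬ IsNilpotent (A - 1)) (u v : K)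
    (hq : ∀ x, A (A x) = u • A x + v • x)
    (r : Dual K V) (c p : V) (hc : c ≠ 0) (hp1 : r p ≠ 0)
    (hp2 : p ∉ (Submodule.span K {c}).comap (A - 1)) (hp : Ind2 A p) :
    ∃ q : Dual K V, ∃ hP : Pivot A r c p q,
      (3 ≤ finrank K V → (∀ a : K, schur A q p hP.h1 ≠ a • 1) ∧
        ¬ IsNilpotent (schur A q p hP.h1 - 1)) := by
  classical
  have hinj : Function.Injective A := by
    have hu : IsUnit (LinearMap.det A) := by rw [hdet]; exact isUnit_one
    exact LinearMap.ker_eq_bot.mp
      ((LinearMap.isUnit_iff_ker_eq_bot A).mp ((LinearMap.isUnit_iff_isUnit_det A).mpr hu))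
  have hp0 : p ≠ 0 := hp.ne_zero
  set w := A p - p with hw
  have hw0 : w ≠ 0 := by
    intro h
    have := hp (-1) 1 (by
      have h3 : A p = p := sub_eq_zero.mp h
      rw [h3]; module)
    exact one_ne_zero this.2
  by_cases hs : u + v = 1
  · -- `1` is a root: `(A - 1)² = (u - 2) (A - 1)`
    set u' := u - 2 with hu'
    have hN2 : ∀ x, A (A x) - A x - (A x - x) = u' • (A x - x) := by
      intro x
      have hv : v = 1 - u := by linear_combination hs
      rw [hq x, hv, hu']
      module
    have hu'0 : u' ≠ 0 := by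
      intro h0
      apply hnil
      refine ⟨2, ?_⟩
      ext x
      have := hN2 x
      rw [h0, zero_smul] at this
      rw [pow_two, Module.End.mul_apply]
      simp only [LinearMap.sub_apply, Module.End.one_apply, map_sub, LinearMap.zero_apply]
      exact this
    obtain ⟨z, hz⟩ : ∃ z, A z - z ∉ Submodule.span K {w} := by
      by_contra hcon
      push Not at hcon
      apply hnil
      apply nilp_of_rank_one A hdet w hw0
      intro x
      simpa using hcon x
    obtain ⟨q0, hq0w, hq0⟩ := exists_functional hK w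
      ({p, c, A z - z} : Finset V) ((Finset.card_le_three).trans (by norm_num)) (by
        intro v hv
        simp only [Finset.mem_insert, Finset.mem_singleton] at hv
        rcases hv with h | h | h <;> rw [h]
        · exact notMem_span_of_ind2 hp
        · exact c_notMem_span hc hp2
        · exact hz)
    obtain ⟨q, hqw, hqp, hq'⟩ := exists_normalized (p := p) hq0w (hq0 p (by simp))
    have hqAp : q (A p) = 1 := by
      have := hqw
      rw [hw, map_sub, hqp, sub_eq_zero] at this
      exact this
    have hqc : q c ≠ 0 := hq' _ (hq0 c (by simp))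
    have hqz : q (A z - z) ≠ 0 := hq' _ (hq0 (A z - z) (by simp))
    have hne : A p ≠ p := fun h => hw0 (sub_eq_zero.mpr h)
    have hrow : rowOf A q ≠ 0 := by
      intro h0
      have := congrArg (fun f => f (proj q p hqp z)) h0
      simp only [rowOf_apply, proj_coe, LinearMap.zero_apply, map_sub, map_smul, hqAp, smul_eq_mul,
        mul_one] at this
      apply hqz
      rw [map_sub]
      exact this
    refine ⟨q, ⟨hqp, hqAp, hp1, hqc, hne, hrow⟩, fun hd => ?_⟩
    refine ⟨nonscalar_of_quad A u v hq hinj hqp hqAp hp hrow hd, ?_⟩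
    rintro ⟨k, hk⟩
    -- `w1` is an eigenvector with eigenvalue `1 + u'`
    have hAw : A w = (1 + u') • w := by
      have := hN2 p
      rw [hw, map_sub]
      linear_combination (norm := module) this
    have hqw' : q (A w) = 0 := by rw [hAw, map_smul, hqw, smul_zero]
    have hT1 : (schur A q p hqAp - 1) (w1 hqp hqAp) = u' • w1 hqp hqAp := by
      apply Subtype.ext
      simp only [LinearMap.sub_apply, Module.End.one_apply, Submodule.coe_sub, schur_coe, w1_coe,
        Submodule.coe_smul]
      rw [← hw, hqw', hAw]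
      module
    have hT : ∀ k : ℕ, ((schur A q p hqAp - 1) ^ k) (w1 hqp hqAp) = (u' ^ k) • w1 hqp hqAp := by
      intro k
      induction k with
      | zero => simp
      | succ k ih =>
        rw [pow_succ, Module.End.mul_apply, hT1, map_smul, ih, smul_smul, pow_succ']
    have h3 := hT k
    rw [hk, LinearMap.zero_apply] at h3
    rcases smul_eq_zero.mp h3.symm with h4 | h4
    · exact pow_ne_zero k hu'0 h4
    · exact hw0 (congrArg Subtype.val h4)
  · -- `1` is not a root: `A - 1` injective
    obtain ⟨q0, hq0w, hq0⟩ := exists_functional hK w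
      ({p, c} : Finset V) ((Finset.card_le_two).trans (by norm_num)) (by
        intro v hv
        simp only [Finset.mem_insert, Finset.mem_singleton] at hv
        rcases hv with h | h <;> rw [h]
        · exact notMem_span_of_ind2 hp
        · exact c_notMem_span hc hp2)
    obtain ⟨q, hqw, hqp, hq'⟩ := exists_normalized (p := p) hq0w (hq0 p (by simp))
    have hqAp : q (A p) = 1 := by
      have := hqw
      rw [hw, map_sub, hqp, sub_eq_zero] at this
      exact this
    have hqc : q c ≠ 0 := hq' _ (hq0 c (by simp))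
    have hne : A p ≠ p := fun h => hw0 (sub_eq_zero.mpr h)
    have hrow : rowOf A q ≠ 0 := by
      intro h0
      have := congrArg (fun f => f (w1 hqp hqAp)) h0
      simp only [rowOf_apply, w1_coe, LinearMap.zero_apply, map_sub] at this
      rw [hq p, map_add, map_smul, map_smul, hqAp, hqp] at this
      apply hs
      simp only [smul_eq_mul, mul_one] at this
      linear_combination this
    refine ⟨q, ⟨hqp, hqAp, hp1, hqc, hne, hrow⟩, fun hd => ?_⟩
    refine ⟨nonscalar_of_quad A u v hq hinj hqp hqAp hp hrow hd, ?_⟩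
    rintro ⟨k, hk⟩
    obtain ⟨x, hx0, hx1, hx2⟩ := exists_common_ker hd q (q ∘ₗ A)
    rw [LinearMap.comp_apply] at hx2
    have hNinj : ∀ x : V, x ≠ 0 → A x - x ≠ 0 := by
      intro x hx h3
      have h4 : A x = x := sub_eq_zero.mp h3
      have h5 := hq x
      rw [h4, h4] at h5
      have h6 : (u + v - 1) • x = 0 := by
        linear_combination (norm := module) -h5
      rcases smul_eq_zero.mp h6 with h7 | h7
      · exact hs (by linear_combination h7)
      · exact hx h7
    have hT : ∀ (k : ℕ) (y : LinearMap.ker q), q (A y) = 0 → (y : V) ≠ 0 →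
        ((schur A q p hqAp - 1) ^ k) y ≠ 0 := by
      intro k
      induction k with
      | zero =>
        intro y _ hy h3
        apply hy
        simpa using congrArg Subtype.val h3
      | succ k ih =>
        intro y hy1 hy0
        rw [pow_succ, Module.End.mul_apply]
        have hcoe : (((schur A q p hqAp - 1) y : LinearMap.ker q) : V) = A y - y := by
          simp only [LinearMap.sub_apply, Module.End.one_apply, Submodule.coe_sub, schur_coe]
          rw [hy1, zero_smul, sub_zero]
        apply ih
        · rw [hcoe, map_sub, map_sub, hq, map_add, map_smul, map_smul, hy1]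
          have : q (y : V) = 0 := y.2
          simp [this]
        · rw [hcoe]
          exact hNinj _ hy0
    exact hT k ⟨x, hx1⟩ hx2 hx0 (by rw [hk, LinearMap.zero_apply])

/-- The pivot exists. -/
theorem exists_pivot [FiniteDimensional K V] (hK : 4 ≤ Cardinal.mk K) (A : Module.End K V)
    (hdet : LinearMap.det A = 1) (hns : ∀ a : K, A ≠ a • 1) (hnil : ¬ IsNilpotent (A - 1))
    (r : Dual K V) (hr : r ≠ 0) (c : V) (hc : c ≠ 0) :
    ∃ (p : V) (q : Dual K V) (hP : Pivot A r c p q),
      (3 ≤ finrank K V → (∀ a : K, schur A q p hP.h1 ≠ a • 1) ∧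
        ¬ IsNilpotent (schur A q p hP.h1 - 1)) := by
  have h1 : LinearMap.ker r ≠ ⊤ := by
    intro h
    exact hr (LinearMap.ker_eq_top.mp h)
  have h2 := H2_ne_top hdet hnil hc
  rcases dichotomy hK A hns _ _ h1 h2 with ⟨p, hp1, hp2, hp⟩ | ⟨u, v, huv⟩
  · obtain ⟨q, hP, hq⟩ := choice_S hK A r c p hc (by simpa using hp1) hp2 hp
    exact ⟨p, q, hP, fun _ => hq⟩
  · obtain ⟨p, hp1, hp2, hp⟩ := exists_ind2 hK A hns _ _ h1 h2
    obtain ⟨q, hP, hq⟩ := choice_Q hK A hdet hnil u v huv r c p hc (by simpa using hp1) hp2 hp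
    exact ⟨p, q, hP, hq⟩

end Cfsg.Agent.Lib.LUReg.Choice
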