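import Cfsg.Agent.Lib.LUReg.Rec

/-!
# A regular unipotent endomorphism is conjugate to the Jordan matrix
-/

set_option autoImplicit false

namespace Cfsg.Agent.Lib.LUReg.Conj

open Module Matrix

variable {K : Type*} [Field K]

theorem chain_independent {d : ℕ} (N : Module.End K (Fin (d + 1) → K)) (h1 : N ^ (d + 1) = 0)
    (v : Fin (d + 1) → K) (hv : (N ^ d) v ≠ 0) (c : Fin (d + 1) → K)
    (hc : ∑ j : Fin (d + 1), c j • (N ^ (d - j.val)) v = 0) : c = 0 := by
  have key : ∀ m : ℕ, m ≤ d + 1 → ∀ j : Fin (d + 1), d + 1 - m ≤ j.val → c j = 0 := by
    intro m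
    induction m with
    | zero =>
      intro _ j hj
      have := j.2
      omega
    | succ m ih =>
      intro hm j hj
      by_cases hj2 : d + 1 - m ≤ j.val
      · exact ih (by omega) j hj2
      · have hjv : j.val = d - m := by omega
        have h3 := congrArg (N ^ j.val) hc
        rw [map_sum, map_zero, Finset.sum_eq_single j] at h3
        · rw [map_smul, ← Module.End.mul_apply, ← pow_add] at h3
          have h4 : j.val + (d - j.val) = d := by have := j.2; omega
          rw [h4] at h3
          exact (smul_eq_zero.mp h3).resolve_right hv
        · intro i _ hij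
          rw [map_smul, ← Module.End.mul_apply, ← pow_add]
          by_cases hlt : i.val < j.val
          · have h5 : j.val + (d - i.val) = (d + 1) + (j.val + (d - i.val) - (d + 1)) := by
              have := i.2
              omega
            rw [h5, pow_add, h1]
            simp
          · have h6 : d + 1 - m ≤ i.val := by
              have : i.val ≠ j.val := fun h => hij (Fin.ext h)
              omega
            rw [ih (by omega) i h6, zero_smul]
        · intro h5
          exact absurd (Finset.mem_univ j) h5
  funext j
  exact key (d + 1) le_rfl j (by omega)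

theorem exists_conj_J {d : ℕ} (J : Matrix (Fin (d + 1)) (Fin (d + 1)) K)
    (hJ : ∀ i j : Fin (d + 1), J i j = if i = j then 1 else if j.val = i.val + 1 then 1 else 0)
    (a : Module.End K (Fin (d + 1) → K)) (h1 : (a - 1) ^ (d + 1) = 0) (h2 : (a - 1) ^ d ≠ 0) :
    ∃ x : Matrix (Fin (d + 1)) (Fin (d + 1)) K, IsUnit x ∧ LinearMap.toMatrix' a * x = x * J := by
  classical
  obtain ⟨v, hv⟩ : ∃ v, ((a - 1) ^ d) v ≠ 0 := by
    by_contra hcon
    push Not at hcon
    exact h2 (LinearMap.ext hcon)
  set x : Matrix (Fin (d + 1)) (Fin (d + 1)) K :=
    Matrix.of fun i j => ((a - 1) ^ (d - j.val)) v i with hx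
  refine ⟨x, ?_, ?_⟩
  · rw [← Matrix.mulVec_injective_iff_isUnit]
    show Function.Injective (Matrix.mulVecLin x)
    rw [injective_iff_map_eq_zero (Matrix.mulVecLin x)]
    intro c hc
    apply chain_independent (a - 1) h1 v hv c
    funext i
    have := congrFun hc i
    simp only [Matrix.mulVecLin_apply, Matrix.mulVec, dotProduct, hx, Matrix.of_apply,
      Pi.zero_apply] at this
    simp only [Finset.sum_apply, Pi.smul_apply, smul_eq_mul, Pi.zero_apply]
    rw [← this]
    exact Finset.sum_congr rfl fun j _ => mul_comm _ _
  · ext i j
    have hL : (LinearMap.toMatrix' a * x) i j = (a (((a - 1) ^ (d - j.val)) v)) i := by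
      have h3 := LinearMap.toMatrix'_mulVec a (((a - 1) ^ (d - j.val)) v)
      rw [← h3]
      simp only [Matrix.mul_apply, Matrix.mulVec, dotProduct, hx, Matrix.of_apply]
    rw [hL, Matrix.mul_apply]
    have ha : ∀ y, a y = (a - 1) y + y := by simp
    rw [ha]
    have hle : d - j.val + 1 = d + 1 - j.val := by have := j.2; omega
    have hN : (a - 1) (((a - 1) ^ (d - j.val)) v) = ((a - 1) ^ (d + 1 - j.val)) v := by
      rw [← hle, pow_succ', Module.End.mul_apply]
    rw [hN]
    simp only [hJ, hx, Matrix.of_apply, Pi.add_apply]
    by_cases hj0 : j.val = 0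
    · rw [Finset.sum_eq_single j]
      · rw [hj0, Nat.sub_zero, h1]
        simp
      · intro k _ hkj
        have h5 : ¬ j.val = k.val + 1 := by omega
        simp [hkj, h5]
      · intro h5
        exact absurd (Finset.mem_univ j) h5
    · set j' : Fin (d + 1) := ⟨j.val - 1, by have := j.2; omega⟩ with hj'
      have hne : j' ≠ j := by
        intro h
        have := congrArg Fin.val h
        simp [hj'] at this
        omega
      rw [Finset.sum_eq_add j' j hne]
      · have e1 : d + 1 - j.val = d - j'.val := by
          have := j.2
          simp only [hj']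
          omega
        have e2 : j.val = j'.val + 1 := by
          simp only [hj']
          omega
        rw [e1]
        simp [hne, e2]
      · intro k _ hk
        have h5 : k ≠ j := hk.2
        have h6 : ¬ j.val = k.val + 1 := by
          intro h7
          apply hk.1
          apply Fin.ext
          simp only [hj']
          omega
        simp [h5, h6]
      · intro h5
        exact absurd (Finset.mem_univ j') h5
      · intro h5
        exact absurd (Finset.mem_univ j) h5

end Cfsg.Agent.Lib.LUReg.Conj
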