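import Cfsg.Agent.Lib.LUReg.Avoid

/-!
# The locally-quadratic dichotomy

For a nonscalar `A` over a field with `≥ 4` elements and two proper subspaces: either some `p`
outside both has `p, A p, A² p` independent, or `A` satisfies a quadratic equation.
-/

set_option autoImplicit false

namespace Cfsg.Agent.Lib.LUReg.Quad

open Polynomial Module Cfsg.Agent.Lib.LUReg.Avoid

variable {K : Type*} [Field K] {V : Type*} [AddCommGroup V] [Module K V]

theorem aeval_comm (A : Module.End K V) (f g : K[X]) (x : V) :
    aeval A f (aeval A g x) = aeval A g (aeval A f x) := by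
  rw [← Module.End.mul_apply, ← Module.End.mul_apply, ← map_mul, ← map_mul, mul_comm]

theorem aeval_mul_apply (A : Module.End K V) (f g : K[X]) (x : V) :
    aeval A (f * g) x = aeval A f (aeval A g x) := by
  rw [map_mul, Module.End.mul_apply]

/-- First irreducible factor killing a nonzero vector. -/
theorem exists_irreducible_step (A : Module.End K V) (m : V) (hm : m ≠ 0) (h : K[X]) (h0 : h ≠ 0)
    (hh : aeval A h m = 0) :
    ∃ ψ h1 : K[X], Irreducible ψ ∧ aeval A h1 m ≠ 0 ∧ aeval A (ψ * h1) m = 0 := by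
  revert h0 hh
  induction h using WfDvdMonoid.induction_on_irreducible with
  | zero => intro h0; exact absurd rfl h0
  | unit u hu =>
    intro _ hh
    exfalso
    apply hm
    obtain ⟨v, hv⟩ := hu.exists_left_inv
    have := aeval_mul_apply A v u m
    rw [hv, hh, map_one, map_zero] at this
    simpa using this
  | mul a i h0 hi ih =>
    intro _ hh
    by_cases h1 : aeval A a m = 0
    · exact ih h0 h1
    · exact ⟨i, a, hi, h1, hh⟩

/-- Key lemma: if `p` has local annihilator `(f)` and `f(A) ≠ 0`, there is a direction `y` such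
that all `p + t y`, `t ≠ 0`, have local annihilators of larger degree. -/
theorem exists_direction [FiniteDimensional K V] (A : Module.End K V) (f : K[X]) (hf0 : f ≠ 0)
    (p : V) (hp : ∀ h : K[X], aeval A h p = 0 → f ∣ h) (hfp : aeval A f p = 0)
    (hF : aeval A f ≠ 0) :
    ∃ y : V, ∀ t : K, t ≠ 0 → ∀ g : K[X], g ≠ 0 → aeval A g (p + t • y) = 0 →
      f.natDegree < g.natDegree := by
  classical
  obtain ⟨z0, hz0⟩ : ∃ z, aeval A f z ≠ 0 := by
    by_contra h
    push Not at h
    exact hF (LinearMap.ext h)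
  have hint : IsIntegral K A := Algebra.IsIntegral.isIntegral A
  obtain ⟨ψ, h1, hψ, hh1, hh2⟩ := exists_irreducible_step A (aeval A f z0) hz0 (minpoly K A)
    (minpoly.ne_zero hint) (by rw [minpoly.aeval]; simp)
  obtain ⟨i, f', hf', hff⟩ := WfDvdMonoid.max_power_factor hf0 hψ
  set y' := aeval A h1 z0 with hy'
  set y := aeval A f' y' with hy
  have hy1 : aeval A (ψ ^ i) y ≠ 0 := by
    rw [hy, ← aeval_mul_apply, ← hff, hy', aeval_comm]
    exact hh1
  have hy2 : aeval A (ψ ^ (i + 1)) y = 0 := by
    rw [hy, ← aeval_mul_apply, pow_succ', mul_assoc, ← hff, hy', ← aeval_mul_apply]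
    rw [← aeval_mul_apply] at hh2
    rw [show ψ * f * h1 = ψ * h1 * f by ring]
    exact hh2
  refine ⟨y, fun t ht g hg hgx => ?_⟩
  have hadd : ∀ P : K[X], aeval A P (p + t • y) = aeval A P p + t • aeval A P y := by
    intro P; simp
  have hψprime : Prime ψ := hψ.prime
  -- `ψ^(i+1) ∣ g`
  have hcop : ∀ u : K[X], ¬ ψ ∣ u → IsCoprime ψ u := fun u hu =>
    (Irreducible.coprime_iff_not_dvd hψ).mpr hu
  have hd1 : ψ ^ (i + 1) ∣ g := by
    obtain ⟨j, g', hg', hgg⟩ := WfDvdMonoid.max_power_factor hg hψ
    by_contra hnd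
    have hji : j ≤ i := by
      by_contra hlt
      push Not at hlt
      apply hnd
      rw [hgg]
      exact Dvd.dvd.mul_right (pow_dvd_pow _ hlt) _
    have hPeq : ψ ^ (i - j) * f' * g = g' * f := by
      rw [hgg, hff]
      have : ψ ^ i = ψ ^ (i - j) * ψ ^ j := by rw [← pow_add]; congr 1; omega
      rw [this]
      ring
    have hP : aeval A (g' * f) (p + t • y) = 0 := by
      rw [← hPeq, aeval_mul_apply, hgx, map_zero]
    rw [hadd, aeval_mul_apply, hfp, map_zero, zero_add] at hP
    have hP2 : aeval A (g' * f) y = 0 := by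
      rcases smul_eq_zero.mp hP with h | h
      · exact absurd h ht
      · exact h
    have hP3 : aeval A (g' * f') (aeval A (ψ ^ i) y) = 0 := by
      rw [← aeval_mul_apply]
      rw [hff] at hP2
      rw [show g' * f' * ψ ^ i = g' * (ψ ^ i * f') by ring]
      exact hP2
    have hP4 : aeval A ψ (aeval A (ψ ^ i) y) = 0 := by
      rw [← aeval_mul_apply, ← pow_succ']
      exact hy2
    have hc : IsCoprime ψ (g' * f') := hcop _ (fun hdv =>
      (hψprime.dvd_or_dvd hdv).elim hg' hf')
    obtain ⟨a, b, hab⟩ := hc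
    apply hy1
    have h5 := congrArg (fun P => aeval A P (aeval A (ψ ^ i) y)) hab
    simp only [map_add, LinearMap.add_apply, map_one] at h5
    rw [aeval_mul_apply, aeval_mul_apply, hP3, hP4] at h5
    simpa using h5.symm
  have hd2 : f' ∣ g := by
    have h2 : aeval A (g * ψ ^ (i + 1)) p = 0 := by
      have h3 : aeval A (g * ψ ^ (i + 1)) (p + t • y) = 0 := by
        rw [mul_comm, aeval_mul_apply, hgx, map_zero]
      rw [hadd, aeval_mul_apply A g (ψ ^ (i + 1)) y, hy2, map_zero, smul_zero, add_zero] at h3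
      exact h3
    have h4 := hp _ h2
    have h5 : f' ∣ g * ψ ^ (i + 1) := (Dvd.intro_left _ hff.symm).trans h4
    have h6 : IsCoprime f' (ψ ^ (i + 1)) := (hcop _ hf').symm.pow_right
    exact h6.dvd_of_dvd_mul_right h5
  have hc3 : IsCoprime (ψ ^ (i + 1)) f' := (hcop _ hf').pow_left
  have hd3 : ψ ^ (i + 1) * f' ∣ g := hc3.mul_dvd hd1 hd2
  have hle := natDegree_le_of_dvd hd3 hg
  have hψ0 : ψ ≠ 0 := hψ.ne_zero
  have hf'0 : f' ≠ 0 := by
    rintro rfl
    exact hf0 (by rw [hff, mul_zero])
  rw [natDegree_mul (pow_ne_zero _ hψ0) hf'0, natDegree_pow] at hle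
  have hdf : f.natDegree = i * ψ.natDegree + f'.natDegree := by
    rw [hff, natDegree_mul (pow_ne_zero _ hψ0) hf'0, natDegree_pow]
  have hpos : 0 < ψ.natDegree := hψ.natDegree_pos
  rw [hdf]
  rw [Nat.succ_mul] at hle
  omega

/-- A concrete quadratic monic polynomial. -/
noncomputable def quad (u v : K) : K[X] := X ^ 2 - C u * X - C v

theorem quad_monic (u v : K) : (quad u v).Monic := by
  unfold quad
  monicity!

theorem quad_natDegree (u v : K) : (quad u v).natDegree = 2 := by
  unfold quad
  compute_degree!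

theorem aeval_quad (A : Module.End K V) (u v : K) (x : V) :
    aeval A (quad u v) x = A (A x) - u • A x - v • x := by
  simp [quad, pow_two, Module.End.mul_apply, Algebra.algebraMap_eq_smul_one]

/-- Polynomials of degree `≤ 1` killing a vector `p` with `p, A p` independent vanish. -/
theorem dvd_quad_of_aeval (A : Module.End K V) (u v : K) (p : V) (h2 : Ind2 A p)
    (hq : aeval A (quad u v) p = 0) (h : K[X]) (hh : aeval A h p = 0) : quad u v ∣ h := by
  have hm := quad_monic u v
  have hr : (h %ₘ quad u v).natDegree < 2 := by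
    have := natDegree_modByMonic_lt h hm (by
      intro h1
      have := quad_natDegree u v
      rw [h1] at this
      simp at this)
    rwa [quad_natDegree] at this
  have hsum := modByMonic_add_div h (quad u v)
  have hR : aeval A (h %ₘ quad u v) p = 0 := by
    have h3 := congrArg (fun P => aeval A P p) hsum
    simp only [map_add, LinearMap.add_apply] at h3
    rw [hh, mul_comm, aeval_mul_apply, hq, map_zero, add_zero] at h3
    exact h3
  have hform : h %ₘ quad u v = C ((h %ₘ quad u v).coeff 1) * X + C ((h %ₘ quad u v).coeff 0) :=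
    eq_X_add_C_of_degree_le_one (degree_le_of_natDegree_le (Nat.lt_succ_iff.mp hr))
  rw [hform] at hR
  simp only [map_add, map_mul, aeval_C, aeval_X, LinearMap.add_apply, Module.End.mul_apply,
    Algebra.algebraMap_eq_smul_one, LinearMap.smul_apply, Module.End.one_apply] at hR
  have h5 := h2 _ _ (by rw [add_comm] at hR; exact hR)
  rw [← modByMonic_eq_zero_iff_dvd hm, hform, h5.1, h5.2]
  simp

/-- The dichotomy. -/
theorem dichotomy [FiniteDimensional K V] (hK : 4 ≤ Cardinal.mk K) (A : Module.End K V)
    (hA : ∀ c : K, A ≠ c • 1) (H1 H2 : Submodule K V) (h1 : H1 ≠ ⊤) (h2 : H2 ≠ ⊤) :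
    (∃ p, p ∉ H1 ∧ p ∉ H2 ∧ Ind3 A p) ∨ (∃ u v : K, ∀ x, A (A x) = u • A x + v • x) := by
  classical
  obtain ⟨p, hp1, hp2, hp⟩ := exists_ind2 hK A hA H1 H2 h1 h2
  by_cases hi3 : Ind3 A p
  · exact Or.inl ⟨p, hp1, hp2, hi3⟩
  unfold Ind3 at hi3
  push Not at hi3
  obtain ⟨a, b, c, habc, hne⟩ := hi3
  have hc : c ≠ 0 := by
    rintro rfl
    have := hp a b (by simpa using habc)
    exact hne this.1 this.2 rfl
  set u := -b / c with hu
  set v := -a / c with hv
  have hq : aeval A (quad u v) p = 0 := by
    rw [aeval_quad]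
    have h3 : c • A (A p) = -(a • p + b • A p) := eq_neg_of_add_eq_zero_right habc
    have h4 : A (A p) = c⁻¹ • (c • A (A p)) := by
      rw [smul_smul, inv_mul_cancel₀ hc, one_smul]
    rw [h4, h3, hu, hv]
    simp only [neg_add, smul_add, smul_neg, smul_smul, div_eq_mul_inv]
    simp only [neg_mul, neg_smul, mul_comm c⁻¹]
    abel
  by_cases hF : aeval A (quad u v) = 0
  · refine Or.inr ⟨u, v, fun x => ?_⟩
    have := congrArg (fun T => T x) hF
    simp only [aeval_quad, LinearMap.zero_apply] at this
    rw [sub_sub, sub_eq_zero] at this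
    exact this
  · left
    obtain ⟨y, hy⟩ := exists_direction A (quad u v) (quad_monic u v).ne_zero p
      (dvd_quad_of_aeval A u v p hp hq) hq hF
    obtain ⟨t, ht0, ht1, ht2⟩ := exists_t_avoid hK H1 H2 hp1 hp2 y
    refine ⟨p + t • y, ht1, ht2, ?_⟩
    intro a' b' c' habc'
    by_contra hne'
    have hg : (C c' * X ^ 2 + C b' * X + C a' : K[X]) ≠ 0 := by
      intro h0
      apply hne'
      have e0 := congrArg (fun P => coeff P 0) h0
      have e1 := congrArg (fun P => coeff P 1) h0
      have e2 := congrArg (fun P => coeff P 2) h0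
      simp [coeff_X, coeff_C] at e0 e1 e2
      exact ⟨e0, e1, e2⟩
    have hgen : ∀ x : V, aeval A (C c' * X ^ 2 + C b' * X + C a' : K[X]) x
        = a' • x + b' • A x + c' • A (A x) := by
      intro x
      simp only [map_add, map_mul, map_pow, aeval_C, aeval_X, LinearMap.add_apply,
        Module.End.mul_apply, Algebra.algebraMap_eq_smul_one, LinearMap.smul_apply,
        Module.End.one_apply, pow_two]
      abel
    have hdeg := hy t ht0 _ hg (by rw [hgen, habc'])
    rw [quad_natDegree] at hdeg
    have hle : (C c' * X ^ 2 + C b' * X + C a' : K[X]).natDegree ≤ 2 := by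
      compute_degree
    omega

end Cfsg.Agent.Lib.LUReg.Quad
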