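import Cfsg.Agent.Lib.LUReg.Choice

/-!
# The recursion: `A = L U` with `L`, `U` regular unipotent.
-/

set_option autoImplicit false

namespace Cfsg.Agent.Lib.LUReg.Rec

open Module Cfsg.Agent.Lib.LUReg.Avoid Cfsg.Agent.Lib.LUReg.Quad
  Cfsg.Agent.Lib.LUReg.Schur Cfsg.Agent.Lib.LUReg.Choice

universe u v

variable {K : Type v} [Field K]

/-- Endomorphisms of a line are scalars. -/
theorem exists_scalar {V : Type u} [AddCommGroup V] [Module K V] (h : finrank K V = 1)
    (A : Module.End K V) : ∃ a : K, A = a • 1 := by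
  obtain ⟨v, hv0, hv⟩ := finrank_eq_one_iff'.mp h
  obtain ⟨a, ha⟩ := hv (A v)
  refine ⟨a, ?_⟩
  ext x
  obtain ⟨b, hb⟩ := hv x
  rw [← hb, map_smul, ← ha, LinearMap.smul_apply, Module.End.one_apply, smul_comm]

theorem lu_rec (hK : 4 ≤ Cardinal.mk K) (d : ℕ) :
    ∀ (V : Type u) [AddCommGroup V] [Module K V] [FiniteDimensional K V], finrank K V = d + 1 →
    ∀ A : Module.End K V, LinearMap.det A = 1 →
      (2 ≤ finrank K V → (∀ a : K, A ≠ a • 1) ∧ ¬ IsNilpotent (A - 1)) →
    ∀ r : Dual K V, r ≠ 0 → ∀ c : V, c ≠ 0 →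
    ∃ L U : Module.End K V, A = L * U ∧ (L - 1) ^ (d + 1) = 0 ∧ (U - 1) ^ (d + 1) = 0 ∧
      ((L - 1) ^ d) c ≠ 0 ∧ ∃ x, r (((U - 1) ^ d) x) ≠ 0 := by
  induction d with
  | zero =>
    intro V _ _ _ hV A hdet _ r hr c hc
    obtain ⟨a, rfl⟩ := exists_scalar (by simpa using hV) A
    have ha : a = 1 := by
      rw [show (a • (1 : Module.End K V)) = a • LinearMap.id from rfl, LinearMap.det_smul,
        LinearMap.det_id, hV] at hdet
      simpa using hdet
    subst ha
    obtain ⟨x, hx⟩ : ∃ x, r x ≠ 0 := by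
      by_contra hcon
      push Not at hcon
      exact hr (LinearMap.ext hcon)
    refine ⟨1, 1, by simp, by simp, by simp, by simpa using hc, x, by simpa using hx⟩
  | succ d ih =>
    intro V _ _ _ hV A hdet hG r hr c hc
    obtain ⟨hns, hnil⟩ := hG (by omega)
    obtain ⟨p, q, hP, hgood⟩ := exists_pivot hK A hdet hns hnil r hr c hc
    have hq0 : q ≠ 0 := by
      rintro rfl
      have := hP.h
      simp at this
    have hW := Module.Dual.finrank_ker_add_one_of_ne_zero hq0
    have hW' : finrank K (LinearMap.ker q) = d + 1 := by omega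
    have hdet' : LinearMap.det (schur A q p hP.h1) = 1 := by
      rw [det_schur hP.h, hdet]
    have hw1 : w1 hP.h hP.h1 ≠ 0 := by
      intro h0
      apply hP.hne
      have := congrArg Subtype.val h0
      simpa [sub_eq_zero] using this
    obtain ⟨L1, U1, hfac, hL1, hU1, hLc, x0, hx0⟩ := ih (LinearMap.ker q) hW'
      (schur A q p hP.h1) hdet' (fun h2 => hgood (by omega)) (rowOf A q) hP.hrow
      (w1 hP.h hP.h1) hw1
    have hAp : A p = p + (w1 hP.h hP.h1 : V) := by simp
    refine ⟨gL hP.h (A p) L1, gU hP.h (rowOf A q) U1, factor hP.h A hP.h1 L1 U1 hfac, ?_, ?_, ?_, ?_⟩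
    · ext x
      rw [hAp, gL_pow_succ_apply, hL1]
      simp
    · ext x
      rw [gU_pow_succ_apply, hU1, pow_succ', hU1]
      simp
    · rw [hAp, gL_pow_succ_apply]
      intro h0
      rw [map_add, map_smul, ← Module.End.mul_apply, ← pow_succ, hL1, LinearMap.zero_apply,
        add_zero] at h0
      have h1 := congrArg (fun y : V => y) h0
      simp only [Submodule.coe_smul, smul_eq_zero] at h1
      rcases h1 with h2 | h2
      · exact hP.hc h2
      · exact hLc (Subtype.ext h2)
    · refine ⟨x0, ?_⟩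
      rw [gU_pow_succ_apply, proj_sub, hU1]
      simp only [LinearMap.zero_apply, Submodule.coe_zero, add_zero, map_smul, smul_eq_mul]
      exact mul_ne_zero hx0 hP.hr

/-- A vector `Y` with `ψa Y ≠ ψa z` and `ψb Y ≠ 0`, for nonzero endomorphisms. -/
theorem exists_Y (hK : 4 ≤ Cardinal.mk K) {W : Type u} [AddCommGroup W] [Module K W]
    (ψa ψb : Module.End K W) (ha : ψa ≠ 0) (hb : ψb ≠ 0) (z : W) :
    ∃ Y, ψa Y ≠ ψa z ∧ ψb Y ≠ 0 := by
  classical
  obtain ⟨w, hw⟩ : ∃ w, ψa w ≠ 0 := by
    by_contra hcon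
    push Not at hcon
    exact ha (LinearMap.ext hcon)
  obtain ⟨u, hu⟩ : ∃ u, ψb u ≠ 0 := by
    by_contra hcon
    push Not at hcon
    exact hb (LinearMap.ext hcon)
  -- bad values of `t`
  have key1 : ∃ t0 : K, ∀ t : K, ψa (u + t • w) = ψa z → t = t0 := by
    by_cases h : ∃ t : K, ψa (u + t • w) = ψa z
    · obtain ⟨t0, ht0⟩ := h
      refine ⟨t0, fun t ht => ?_⟩
      by_contra hne
      have h3 : (t - t0) • ψa w = 0 := by
        have := ht.trans ht0.symm
        rw [map_add, map_add, map_smul, map_smul] at this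
        rw [sub_smul]
        exact sub_eq_zero.mpr (add_left_cancel this)
      rcases smul_eq_zero.mp h3 with h4 | h4
      · exact hne (sub_eq_zero.mp h4)
      · exact hw h4
    · exact ⟨0, fun t ht => (h ⟨t, ht⟩).elim⟩
  have key2 : ∃ t0 : K, ∀ t : K, ψb (u + t • w) = 0 → t = t0 := by
    by_cases h : ∃ t : K, ψb (u + t • w) = 0
    · obtain ⟨t0, ht0⟩ := h
      refine ⟨t0, fun t ht => ?_⟩
      by_contra hne
      have h3 : (t - t0) • ψb w = 0 := by
        have := ht.trans ht0.symm
        rw [map_add, map_add, map_smul, map_smul] at this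
        rw [sub_smul]
        exact sub_eq_zero.mpr (add_left_cancel this)
      rcases smul_eq_zero.mp h3 with h4 | h4
      · exact hne (sub_eq_zero.mp h4)
      · apply hu
        have h5 := ht0
        rw [map_add, map_smul, h4, smul_zero, add_zero] at h5
        exact h5
    · exact ⟨0, fun t ht => (h ⟨t, ht⟩).elim⟩
  obtain ⟨t1, ht1⟩ := key1
  obtain ⟨t2, ht2⟩ := key2
  obtain ⟨t, ht⟩ := exists_notMem_finset hK ({t1, t2} : Finset K)
    (lt_of_le_of_lt Finset.card_le_two (by norm_num))
  simp only [Finset.mem_insert, Finset.mem_singleton, not_or] at ht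
  exact ⟨u + t • w, fun h => ht.1 (ht1 t h), fun h => ht.2 (ht2 t h)⟩

theorem unip_rec (hK : 4 ≤ Cardinal.mk K) (d : ℕ) :
    ∀ (V : Type u) [AddCommGroup V] [Module K V] [FiniteDimensional K V], finrank K V = d + 1 →
    ∀ g : Module.End K V, IsNilpotent (g - 1) →
    ∃ a b : Module.End K V, g = a * b ∧ (a - 1) ^ (d + 1) = 0 ∧ (b - 1) ^ (d + 1) = 0 ∧
      (a - 1) ^ d ≠ 0 ∧ (b - 1) ^ d ≠ 0 := by
  induction d with
  | zero =>
    intro V _ _ _ hV g hg
    obtain ⟨a, rfl⟩ := exists_scalar (by simpa using hV) g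
    have hV1 : Nontrivial V := Module.nontrivial_of_finrank_pos (R := K) (by omega)
    have h1 : a • (1 : Module.End K V) - 1 = (a - 1) • 1 := by rw [sub_smul, one_smul]
    have ha : a = 1 := by
      rw [h1] at hg
      obtain ⟨k, hk⟩ := hg
      rw [smul_pow, one_pow] at hk
      rcases smul_eq_zero.mp hk with h2 | h2
      · by_contra h3
        exact pow_ne_zero k (sub_ne_zero.mpr h3) h2
      · exact absurd h2 one_ne_zero
    subst ha
    exact ⟨1, 1, by simp, by simp, by simp, by simp, by simp⟩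
  | succ d ih =>
    intro V _ _ _ hV g hg
    have hV1 : Nontrivial V := Module.nontrivial_of_finrank_pos (R := K) (by omega)
    have hrange : LinearMap.range (g - 1) < ⊤ := by
      rw [lt_top_iff_ne_top]
      intro htop
      obtain ⟨k, hk⟩ := hg
      have hs : Function.Surjective ((g - 1) ^ k : Module.End K V) := by
        rw [Module.End.coe_pow]
        exact (LinearMap.range_eq_top.mp htop).iterate k
      rw [hk] at hs
      obtain ⟨x, hx⟩ := exists_ne (0 : V)
      obtain ⟨y, hy⟩ := hs x
      exact hx (by rw [← hy]; simp)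
    obtain ⟨q, hq0, hqN⟩ := Submodule.exists_le_ker_of_lt_top _ hrange
    have hqN' : ∀ x, q (g x) = q x := by
      intro x
      have : (g - 1) x ∈ LinearMap.ker q := hqN (LinearMap.mem_range_self _ x)
      rw [LinearMap.mem_ker] at this
      simpa [sub_eq_zero] using this
    obtain ⟨p0, hp0⟩ : ∃ x, q x ≠ 0 := by
      by_contra hcon
      push Not at hcon
      exact hq0 (LinearMap.ext hcon)
    set p := (q p0)⁻¹ • p0 with hp
    have h : q p = 1 := by simp [hp, hp0]
    have hW := Module.Dual.finrank_ker_add_one_of_ne_zero hq0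
    have hW' : finrank K (LinearMap.ker q) = d + 1 := by omega
    have hgW : ∀ x ∈ LinearMap.ker q, g x ∈ LinearMap.ker q := by
      intro x hx
      rw [LinearMap.mem_ker] at hx ⊢
      rw [hqN', hx]
    set g0 := g.restrict hgW with hg0def
    have hg0c : ∀ w : LinearMap.ker q, (g0 w : V) = g w := fun w => rfl
    have hg0 : IsNilpotent (g0 - 1) := by
      obtain ⟨k, hk⟩ := hg
      refine ⟨k, ?_⟩
      have : ∀ (j : ℕ) (w : LinearMap.ker q), (((g0 - 1) ^ j) w : V) = ((g - 1) ^ j) w := by
        intro j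
        induction j with
        | zero => simp
        | succ j ihj =>
          intro w
          rw [pow_succ, Module.End.mul_apply, ihj, pow_succ, Module.End.mul_apply]
          rfl
      ext w
      rw [this, hk]
      simp
    obtain ⟨a0, b0, hfac, ha1, hb1, ha2, hb2⟩ := ih (LinearMap.ker q) hW' g0 hg0
    set z : LinearMap.ker q := ⟨g p - p, by simp [LinearMap.mem_ker, hqN', h]⟩ with hz
    obtain ⟨Y, hY1, hY2⟩ := exists_Y hK ((a0 - 1) ^ d) ((b0 - 1) ^ d) ha2 hb2 z
    set X : LinearMap.ker q := z - a0 Y with hX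
    have hgp : g p = p + (X : V) + (a0 Y : V) := by
      simp only [hX, hz, Submodule.coe_sub]
      abel
    have hqX : q (X : V) = 0 := X.2
    have hqY : q (Y : V) = 0 := Y.2
    refine ⟨gL h (p + (X : V)) a0, gL h (p + (Y : V)) b0, ?_, ?_, ?_, ?_, ?_⟩
    · ext x
      set w := proj q p h x with hw
      have hq1 : q (gL h (p + (Y : V)) b0 x) = q x := by
        have h0 : q (b0 w : V) = 0 := (b0 w).2
        rw [gL_apply, ← hw, map_add, map_smul, map_add, h, hqY, h0]
        simp
      have hq2 : proj q p h (gL h (p + (Y : V)) b0 x) = q x • Y + b0 w := by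
        apply Subtype.ext
        rw [proj_coe, hq1, gL_apply, ← hw]
        simp only [Submodule.coe_add, Submodule.coe_smul, smul_add]
        abel
      have hfac2 : (a0 (b0 w) : V) = g w := by
        rw [← hg0c, hfac, Module.End.mul_apply]
      rw [Module.End.mul_apply, gL_apply, hq1, hq2, map_add, map_smul, Submodule.coe_add,
        Submodule.coe_smul, hfac2]
      have hx : x = q x • p + (w : V) := eq_add_proj h x
      conv_lhs => rw [hx, map_add, map_smul, hgp]
      simp only [smul_add]
      abel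
    · ext x
      rw [gL_pow_succ_apply, ha1]
      simp
    · ext x
      rw [gL_pow_succ_apply, hb1]
      simp
    · intro h0
      have h3 := congrArg (fun T => T p) h0
      simp only [LinearMap.zero_apply] at h3
      rw [gL_pow_succ_apply, h, proj_p, map_zero, add_zero, one_smul] at h3
      apply hY1
      have h4 : ((a0 - 1) ^ d) X = 0 := Subtype.ext h3
      have h5 : ((a0 - 1) ^ d) (a0 Y) = ((a0 - 1) ^ d) Y := by
        have h6 : a0 Y = (a0 - 1) Y + Y := by simp
        rw [h6, map_add, ← Module.End.mul_apply, ← pow_succ, ha1]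
        simp
      rw [hX, map_sub, h5, sub_eq_zero] at h4
      exact h4.symm
    · intro h0
      have h3 := congrArg (fun T => T p) h0
      simp only [LinearMap.zero_apply] at h3
      rw [gL_pow_succ_apply, h, proj_p, map_zero, add_zero, one_smul] at h3
      exact hY2 (Subtype.ext h3)

end Cfsg.Agent.Lib.LUReg.Rec
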